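import Cfsg.Agent.FGS3.HallJankoOrder.Count
import Cfsg.Prelude.Def_TwoFusion

/-!
The centraliser of shape `2² × A₅`: its order and the count of pairs in it.
-/

set_option autoImplicit false

namespace Cfsg.Agent.FGS3.HallJankoOrder

variable {G : Type*} [Group G] [Finite G]

/-- The group behind the model. -/
abbrev NA := (Bool × Bool) × A5

def mulNA (a b : NA) : NA := ((a.1.1 ^^ b.1.1, a.1.2 ^^ b.1.2), a.2 * b.2)

def encN (a : NA) : N := (a.1, encP a.2)

theorem encN_injective : Function.Injective encN := fun a b h =>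
  Prod.ext (Prod.ext_iff.1 h).1 (encP_injective (Prod.ext_iff.1 h).2)

theorem encN_mul (a b : NA) : encN (mulNA a b) = mulN (encN a) (encN b) := by
  simp [encN, mulNA, mulN, encP_mul]

theorem centralT (z t : G) (hz : orderOf z = 2) (ht : orderOf t = 2) (hzt : ¬ IsConj z t)
    (V B : Subgroup G) (hVB : Cfsg.IsInternalDirectProduct V B (Subgroup.centralizer ({t} : Set G)))
    (hV : Nat.card ↥V = 4) (hV2 : ∀ v ∈ V, v ^ 2 = 1) (htV : t ∈ V)
    (e : alternatingGroup (Fin 5) ≃* B)
    (hBz : ∀ x ∈ B, orderOf x = 2 → IsConj x z)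
    (hCt : ∀ x ∈ Subgroup.centralizer ({t} : Set G), orderOf x = 2 → x ∉ B → IsConj x t) :
    Nat.card (Subgroup.centralizer ({t} : Set G)) = 240 ∧
      Nat.card {p : G × G // IsConj z p.1 ∧ IsConj t p.2 ∧ t ∈ Subgroup.zpowers (p.1 * p.2)} = 195 := by
  classical
  haveI : Fact (Nat.Prime 2) := ⟨Nat.prime_two⟩
  obtain ⟨hVC, hBC, hcomm, hdis, hsup⟩ := hVB
  have ht1 : t ≠ 1 := fun h => by simp [h] at ht
  obtain ⟨v, hv, hvt⟩ : ∃ v ∈ V, v ∉ Subgroup.zpowers t := by
    by_contra! h
    have := Subgroup.card_le_of_le (show V ≤ Subgroup.zpowers t from h)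
    rw [hV, Nat.card_zpowers, ht] at this
    omega
  have hv1 : v ≠ 1 := fun h => hvt (h ▸ one_mem _)
  have hvt' : v ≠ t := fun h => hvt (h ▸ Subgroup.mem_zpowers t)
  have htt : t * t = 1 := by rw [← pow_two]; exact hV2 t htV
  have hvv : v * v = 1 := by rw [← pow_two]; exact hV2 v hv
  have htv : t * v = v * t := by
    have h := hV2 _ (V.mul_mem htV hv)
    rw [pow_two, mul_eq_one_iff_eq_inv, mul_inv_rev, inv_eq_of_mul_eq_one_right htt,
      inv_eq_of_mul_eq_one_right hvv] at h
    exact h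
  let vf : Bool × Bool → G := fun p => (if p.1 then t else 1) * (if p.2 then v else 1)
  have hvfV : ∀ p, vf p ∈ V := by
    rintro ⟨a, b⟩; cases a <;> cases b <;> simp [vf, htV, hv, V.mul_mem, V.one_mem]
  have hvfinj : Function.Injective vf := by
    rintro ⟨a, b⟩ ⟨c, d⟩ h
    cases a <;> cases b <;> cases c <;> cases d <;>
      simp [vf, ht1, hv1, hvt', Ne.symm ht1, Ne.symm hv1, Ne.symm hvt', mul_eq_left, mul_eq_right,
        left_eq_mul, right_eq_mul] at h ⊢ <;>
      first
      | exact hvt' (by simpa [inv_eq_of_mul_eq_one_right htt] using (mul_eq_one_iff_eq_inv'.1 h))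
      | exact hvt' (by simpa [inv_eq_of_mul_eq_one_right htt] using (mul_eq_one_iff_eq_inv'.1 h.symm))
  have hvfsurj : ∀ x ∈ V, ∃ p, vf p = x := by
    intro x hx
    have hb : Function.Bijective (fun p => (⟨vf p, hvfV p⟩ : V)) := by
      refine Function.Injective.bijective_of_nat_card_le (fun p q h => hvfinj (congrArg Subtype.val h)) ?_
      rw [hV]; simp
    obtain ⟨p, hp⟩ := hb.2 ⟨x, hx⟩
    exact ⟨p, congrArg Subtype.val hp⟩
  have hvfmul : ∀ p q, vf (p.1 ^^ q.1, p.2 ^^ q.2) = vf p * vf q := by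
    have hc : Commute t v := htv
    rintro ⟨a, b⟩ ⟨c, d⟩
    cases a <;> cases b <;> cases c <;> cases d <;>
      simp [vf, htt, hvv, htv, mul_assoc] <;>
      simp [← mul_assoc, htt, hvv, ← htv, mul_assoc t v v]
  let φ : NA → G := fun a => vf a.1 * (e a.2 : G)
  have hφC : ∀ a, φ a ∈ Subgroup.centralizer ({t} : Set G) := fun a =>
    mul_mem (hVC (hvfV _)) (hBC (e a.2).2)
  have hφ : Function.Injective φ := by
    intro a b h
    have h1 : (vf b.1)⁻¹ * vf a.1 = (e b.2 : G) * (e a.2 : G)⁻¹ := by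
      rw [eq_mul_inv_iff_mul_eq, mul_assoc]
      exact inv_mul_eq_iff_eq_mul.2 h
    have h2 : (vf b.1)⁻¹ * vf a.1 ∈ V ⊓ B :=
      ⟨V.mul_mem (V.inv_mem (hvfV _)) (hvfV _), h1 ▸ B.mul_mem (e b.2).2 (B.inv_mem (e a.2).2)⟩
    rw [hdis, Subgroup.mem_bot] at h2
    refine Prod.ext (hvfinj (inv_mul_eq_one.1 h2).symm) (e.injective (Subtype.ext ?_))
    exact (mul_inv_eq_one.1 (h1.symm.trans h2)).symm
  have hmul : ∀ a b, φ (mulNA a b) = φ a * φ b := by
    intro a b
    show vf (a.1.1 ^^ b.1.1, a.1.2 ^^ b.1.2) * (e (a.2 * b.2) : G) = _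
    rw [hvfmul, map_mul, Subgroup.coe_mul]
    calc vf a.1 * vf b.1 * ((e a.2 : G) * (e b.2 : G))
        = vf a.1 * (vf b.1 * (e a.2 : G)) * (e b.2 : G) := by group
      _ = vf a.1 * ((e a.2 : G) * vf b.1) * (e b.2 : G) := by rw [hcomm _ (hvfV b.1) _ (e a.2).2]
      _ = _ := by simp only [φ]; group
  have hsurj : ∀ g ∈ Subgroup.centralizer ({t} : Set G), ∃ a, φ a = g := by
    intro g hg
    rw [← hsup] at hg
    have hn : B ≤ Subgroup.normalizer (V : Set G) := by
      intro b hb
      rw [Subgroup.mem_normalizer_iff]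
      intro x
      constructor
      · intro hx; rwa [← hcomm x hx b hb, mul_inv_cancel_right]
      · intro hx
        have h := hcomm _ hx b hb
        rw [inv_mul_cancel_right] at h
        rwa [mul_left_cancel h]
    rw [← SetLike.mem_coe, Subgroup.coe_mul_of_right_le_normalizer_left V B hn] at hg
    obtain ⟨x, hx, b, hb, rfl⟩ := hg
    obtain ⟨p, rfl⟩ := hvfsurj x hx
    obtain ⟨s, hs⟩ := e.surjective ⟨b, hb⟩
    exact ⟨(p, s), by simp [φ, hs]⟩
  have hmemC : ∀ g, g ∈ Subgroup.centralizer ({t} : Set G) ↔ g * t = t * g := fun g => by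
    rw [Subgroup.mem_centralizer_iff]
    simp [eq_comm]
  have hcard : Nat.card (Subgroup.centralizer ({t} : Set G)) = 240 := by
    have hbij : Function.Bijective fun a : NA => (⟨φ a, hφC a⟩ : Subgroup.centralizer ({t} : Set G)) :=
      ⟨fun a b h => hφ (congrArg Subtype.val h), fun g => by
        obtain ⟨a, ha⟩ := hsurj g g.2
        exact ⟨a, Subtype.ext ha⟩⟩
    rw [← Nat.card_eq_of_bijective _ hbij, Nat.card_prod, nat_card_alternatingGroup]
    simp [Nat.factorial]
  refine ⟨hcard, ?_⟩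
  have hone : φ ((false, false), 1) = 1 := by simp [φ, vf]
  have hinB : ∀ a, φ a ∈ B ↔ a.1 = (false, false) := by
    intro a
    constructor
    · intro h
      have h2 : vf a.1 ∈ V ⊓ B := ⟨hvfV _, (B.mul_mem_cancel_right (e a.2).2).1 h⟩
      rw [hdis, Subgroup.mem_bot] at h2
      exact hvfinj (h2.trans (by simp [vf]))
    · intro h
      simp [φ, vf, h]
  have hord : ∀ a, orderOf (φ a) = 2 ↔ mulNA a a = ((false, false), 1) ∧ a ≠ ((false, false), 1) := by
    intro a
    rw [orderOf_eq_prime_iff, pow_two, ← hmul, ← hone, hφ.eq_iff, hφ.ne_iff]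
  have hsq : ∀ a : NA, mulNA a a = ((false, false), 1) ↔ a.2 * a.2 = 1 := by
    rintro ⟨⟨x, y⟩, σ⟩; simp [mulNA]
  have hone' : encN ((false, false), 1) = oneN := rfl
  have htm : encN ((true, false), 1) = tN := rfl
  rw [count_pairs_enc (mul := mulNA) (mul' := mulN) encN encN_injective encN_mul z t t hz ht ht φ hφ hmul
    (fun g hg => hsurj g ((hmemC g).2 hg)) ((false, false), 1) ((true, false), 1) hone
    (by simp [φ, vf]) classZN classTN ?_ ?_ ?_ ?_ (hone'.symm ▸ periodN), hone', htm]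
  · exact pairsN_card
  · intro a
    simp only [classZN, encN, Finset.mem_product, Finset.mem_singleton, mem_invs]
    constructor
    · intro h
      have ho : orderOf (φ a) = 2 := by
        obtain ⟨g, hg⟩ := isConj_iff.1 h
        rw [← hg]
        exact (orderOf_injective (MulAut.conj g).toMonoidHom (MulAut.conj g).injective z).trans hz
      have h1 : a.1 = (false, false) := by
        refine (hinB a).1 ?_
        by_contra hB'
        exact hzt (h.trans (hCt _ (hφC a) ho hB'))
      exact ⟨h1, (hsq a).1 ((hord a).1 ho).1, fun h2 => ((hord a).1 ho).2 (Prod.ext h1 h2)⟩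
    · rintro ⟨h, h', h''⟩
      exact (hBz _ ((hinB a).2 h) ((hord a).2 ⟨(hsq a).2 h', fun e => h'' (congrArg Prod.snd e)⟩)).symm
  · intro a
    have hV : a.1 ∈ ({(true, false), (false, true), (true, true)} : Finset (Bool × Bool)) ↔
        a.1 ≠ (false, false) := by
      generalize a.1 = p
      revert p; decide
    simp only [classTN, encN, Finset.mem_product, Finset.mem_insert, mem_invs]
    constructor
    · intro h
      have ho : orderOf (φ a) = 2 := by
        obtain ⟨g, hg⟩ := isConj_iff.1 h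
        rw [← hg]
        exact (orderOf_injective (MulAut.conj g).toMonoidHom (MulAut.conj g).injective t).trans ht
      refine ⟨by
        simpa using hV.2 fun h1 => hzt ((hBz _ ((hinB a).2 h1) ho).symm.trans h.symm), ?_⟩
      by_cases h2 : a.2 = 1
      · exact Or.inl (by rw [h2]; rfl)
      · exact Or.inr ⟨(hsq a).1 ((hord a).1 ho).1, h2⟩
    · rintro ⟨hp, h2⟩
      have h1 : a.1 ≠ (false, false) := hV.1 (by simpa using hp)
      refine (hCt _ (hφC a) ((hord a).2 ⟨(hsq a).2 ?_, fun e => h1 (congrArg Prod.fst e)⟩)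
        fun hb => h1 ((hinB a).1 hb)).symm
      rcases h2 with h2 | h2
      · rw [encP_injective (h2.trans encP_one.symm), mul_one]
      · exact h2.1
  · rintro ⟨p, s⟩ hm
    simp only [classZN, Finset.mem_product] at hm
    obtain ⟨σ, rfl⟩ := invs_range s hm.2
    exact ⟨(p, σ), rfl⟩
  · rintro ⟨p, s⟩ hm
    simp only [classTN, Finset.mem_product, Finset.mem_insert] at hm
    rcases hm.2 with rfl | h
    · exact ⟨(p, 1), rfl⟩
    · obtain ⟨σ, rfl⟩ := invs_range s h
      exact ⟨(p, σ), rfl⟩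

end Cfsg.Agent.FGS3.HallJankoOrder
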