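import Mathlib.Algebra.BigOperators.Group.Finset.Basic
import Mathlib.Algebra.Order.BigOperators.Group.Finset
import Mathlib.Algebra.Group.Commutator
import Mathlib.Tactic

/-!
The number of solutions of `x ^ 2 = 1` in a group of order `32` behaving like an extraspecial one.
-/

set_option autoImplicit false

namespace Cfsg.Agent.FGS3.HallJankoOrder

open scoped commutatorElement

theorem square_roots {Q : Type*} [Group Q] [Fintype Q] [DecidableEq Q] (hcard : Fintype.card Q = 32)
    (ζ : Q) (hζ : ζ ≠ 1) (hζ2 : ζ * ζ = 1) (hζc : ∀ x : Q, Commute ζ x)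
    (hsq : ∀ x : Q, x * x = 1 ∨ x * x = ζ) (hc : ∀ x y : Q, ⁅x, y⁆ = 1 ∨ ⁅x, y⁆ = ζ)
    (hcen : ∀ x : Q, (∀ y, Commute x y) → x = 1 ∨ x = ζ) :
    (Finset.univ.filter fun x : Q => x * x = 1).card = 12 ∨
      (Finset.univ.filter fun x : Q => x * x = 1).card = 20 := by
  let sg : Q → ℤ := fun x => if x = 1 then 1 else -1
  let P : Q → Prop := fun x => x = 1 ∨ x = ζ
  have hsgm : ∀ a b, P a → P b → sg (a * b) = sg a * sg b := by
    rintro a b (rfl | rfl) (rfl | rfl) <;> simp [sg, hζ, hζ2]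
  have hPc : ∀ a x : Q, P a → x * a * x⁻¹ = a := by
    rintro a x (rfl | rfl)
    · group
    · rw [(hζc x).symm.eq, mul_inv_cancel_right]
  have key : ∀ x u, sg (x * x) * sg ((x⁻¹ * u) * (x⁻¹ * u)) = sg (u * u) * sg ⁅x, u⁆ := by
    intro x u
    have e : (x⁻¹ * u) * (x⁻¹ * u) = (x⁻¹ * x⁻¹) * ⁅x, u⁆ * (u * u) := by
      rw [commutatorElement_def]; group
    have hp : P (x⁻¹ * x⁻¹ * ⁅x, u⁆) := by
      rcases hsq x⁻¹ with h | h <;> rcases hc x u with h' | h' <;> simp [P, h, h', hζ2]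
    rw [e, hsgm _ _ hp (hsq u), hsgm _ _ (hsq x⁻¹) (hc x u), ← mul_assoc, ← mul_assoc,
      ← hsgm _ _ (hsq x) (hsq x⁻¹), show x * x * (x⁻¹ * x⁻¹) = 1 by group]
    simp [sg, mul_comm]
  set N := (Finset.univ.filter fun x : Q => x * x = 1).card with hN
  have hS : ∑ x : Q, sg (x * x) = 2 * (N : ℤ) - 32 := by
    have h2 := Finset.card_filter_add_card_filter_not (s := (Finset.univ : Finset Q)) (fun x => x * x = 1)
    rw [Finset.card_univ, hcard, ← hN] at h2
    simp only [sg, Finset.sum_ite, Finset.sum_const, smul_neg, nsmul_eq_mul, mul_one]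
    rw [← hN]
    omega
  have hrow : ∀ u : Q, ∑ x : Q, sg ⁅x, u⁆ = if u = 1 ∨ u = ζ then 32 else 0 := by
    intro u
    by_cases hu : ∀ y, Commute u y
    · rw [if_pos (hcen u hu)]
      rw [Finset.sum_congr rfl (fun x _ => by
        show sg ⁅x, u⁆ = 1
        rw [commutatorElement_eq_one_iff_commute.2 (hu x).symm]; simp [sg]),
        Finset.sum_const, Finset.card_univ, hcard]
      rfl
    · have hu' : ¬(u = 1 ∨ u = ζ) := by
        rintro (rfl | rfl)
        · exact hu fun y => Commute.one_left y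
        · exact hu hζc
      rw [if_neg hu']
      push Not at hu
      obtain ⟨y, hy⟩ := hu
      have hyu : ⁅y, u⁆ = ζ := (hc y u).resolve_left fun h => hy (commutatorElement_eq_one_iff_commute.1 h).symm
      have h : ∑ x : Q, sg ⁅x, u⁆ = ∑ x : Q, -sg ⁅x, u⁆ := by
        rw [← Equiv.sum_comp (Equiv.mulLeft y) (fun x => sg ⁅x, u⁆)]
        refine Finset.sum_congr rfl fun x _ => ?_
        rw [Equiv.coe_mulLeft, show ⁅y * x, u⁆ = (y * ⁅x, u⁆ * y⁻¹) * ⁅y, u⁆ by
          simp only [commutatorElement_def]; group, hPc _ y (hc x u), hyu, hsgm _ _ (hc x u) (Or.inr rfl)]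
        simp [sg, hζ]
      rw [Finset.sum_neg_distrib] at h
      omega
  have hsquare : (2 * (N : ℤ) - 32) * (2 * (N : ℤ) - 32) = 64 := by
    rw [← hS, Finset.sum_mul]
    calc ∑ x, sg (x * x) * ∑ y, sg (y * y)
        = ∑ x, ∑ u, sg (u * u) * sg ⁅x, u⁆ := by
          refine Finset.sum_congr rfl fun x _ => ?_
          rw [Finset.mul_sum, ← Equiv.sum_comp (Equiv.mulLeft x⁻¹) (fun y => sg (x * x) * sg (y * y))]
          exact Finset.sum_congr rfl fun u _ => key x u
      _ = ∑ u, sg (u * u) * (if u = 1 ∨ u = ζ then 32 else 0) := by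
          rw [Finset.sum_comm]
          exact Finset.sum_congr rfl fun u _ => by rw [← Finset.mul_sum, hrow]
      _ = ∑ u ∈ ({1, ζ} : Finset Q), sg (u * u) * 32 := by
          rw [Finset.sum_congr rfl fun u _ => mul_ite _ _ _ _]
          simp only [mul_zero]
          rw [← Finset.sum_filter]
          exact Finset.sum_congr (by ext u; simp) fun _ _ => rfl
      _ = 64 := by rw [Finset.sum_pair hζ.symm]; simp [sg, hζ2]
  have hle : N ≤ 32 := hcard ▸ Finset.card_le_univ _
  clear_value N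
  clear hN hS
  interval_cases N <;> first | (norm_num at hsquare; done) | norm_num

end Cfsg.Agent.FGS3.HallJankoOrder
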