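import Cfsg.Agent.FGS3.HallJankoOrder.Count
import Cfsg.Agent.FGS3.HallJankoOrder.Involutions
import Cfsg.Agent.FGS3.PGroupFrattini
import Cfsg.Agent.Core.Fitting
import Cfsg.Agent.Components.FStar
import Cfsg.Prelude.Def_Transfer
import Mathlib.GroupTheory.Perm.Cycle.Type

/-!
The centraliser of shape `2 ^ (1 + 4) : A₅`: its order and the count of pairs in it.
-/

set_option autoImplicit false
set_option synthInstance.maxSize 4096

namespace Cfsg.Agent.FGS3.HallJankoOrder

open scoped commutatorElement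

variable {G : Type*} [Group G] [Finite G]

/-- The two-element subgroup generated by `z`, as a function. -/
def zp (z : G) (b : Bool) : G := if b then z else 1

/-- Powers of the distinguished involutions. -/
def up (u : Fin 5 → G) (i : Fin 5) (b : Bool) : G := if b then u i else 1

def iota (z : G) (u : Fin 5 → G) : Q5 → G
  | (e, x₀, x₁, x₂, x₃) => zp z e * (up u 0 x₀ * (up u 1 x₁ * (up u 2 x₂ * up u 3 x₃)))

/-- Parity seen by the `j`-th involution. -/
def par : Fin 5 → Q5 → Bool
  | j, (_, x₀, x₁, x₂, x₃) =>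
    (x₀ && decide (0 ≠ j)) ^^ ((x₁ && decide (1 ≠ j)) ^^ ((x₂ && decide (2 ≠ j)) ^^ (x₃ && decide (3 ≠ j))))

/-- The group behind the model. -/
abbrev MA := Q5 × A5

def mulMA (δ : Bool) (a b : MA) : MA := (mulQ a.1 (actQ δ (encP a.2) b.1), a.2 * b.2)

def encM (a : MA) : M := (a.1, encP a.2)

theorem encM_injective : Function.Injective encM := fun a b h =>
  Prod.ext (Prod.ext_iff.1 h).1 (encP_injective (Prod.ext_iff.1 h).2)

theorem encM_mul (δ : Bool) (a b : MA) : encM (mulMA δ a b) = mulM δ (encM a) (encM b) := by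
  simp [encM, mulMA, mulM, encP_mul]

theorem par_inj : ∀ a b : Q5, (∀ j, par j a = par j b) → a.2 = b.2 := by decide +kernel

theorem par_four : ∀ a : Q5, (∀ j, par j a = decide (4 ≠ j)) → a.2 = (true, true, true, true) := by
  decide +kernel

/-- The centraliser facts. -/
theorem centralZ (z t : G) (hz : orderOf z = 2) (ht : orderOf t = 2) (hzt : ¬ IsConj z t)
    (hex : Cfsg.IsExtraspecial 2 ↥(Cfsg.generalizedFittingSubgroup ↥(Subgroup.centralizer ({z} : Set G))))
    (hQ : Nat.card ↥(Cfsg.pCore 2 ↥(Subgroup.centralizer ({z} : Set G))) = 32)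
    (K : Subgroup G) (eK : ↥K ≃* alternatingGroup (Fin 5))
    (QG : Subgroup G)
    (hQG : QG = (Cfsg.pCore 2 ↥(Subgroup.centralizer ({z} : Set G))).map (Subgroup.centralizer ({z} : Set G)).subtype)
    (hKC : K ⊔ QG = Subgroup.centralizer ({z} : Set G)) (hKQ : K ⊓ QG = ⊥)
    (hQz : ∀ x ∈ QG, orderOf x = 2 → IsConj x z)
    (hCz : ∀ x ∈ Subgroup.centralizer ({z} : Set G), orderOf x = 2 → x ∉ QG → IsConj x t)
    (hCt240 : Nat.card (Subgroup.centralizer ({t} : Set G)) = 240) :
    Nat.card (Subgroup.centralizer ({z} : Set G)) = 1920 ∧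
      Nat.card {p : G × G // IsConj z p.1 ∧ IsConj t p.2 ∧ z ∈ Subgroup.zpowers (p.1 * p.2)} = 960 := by
  classical
  haveI : Fact (Nat.Prime 2) := ⟨Nat.prime_two⟩
  set C := Subgroup.centralizer ({z} : Set G) with hC
  set Q0 := Cfsg.pCore 2 ↥C with hQ0
  have hmemC : ∀ g, g ∈ C ↔ g * z = z * g := fun g => by
    rw [hC, Subgroup.mem_centralizer_iff]; simp [eq_comm]
  have hQC : QG ≤ C := hQG ▸ Subgroup.map_subtype_le _
  have hKC' : K ≤ C := hKC ▸ le_sup_left
  have hQmem : ∀ x (h : x ∈ C), x ∈ QG ↔ (⟨x, h⟩ : C) ∈ Q0 := fun x h => by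
    rw [hQG]
    exact ⟨fun ⟨y, hy, e⟩ => by rwa [show (⟨x, h⟩ : C) = y from Subtype.ext e.symm],
      fun h' => ⟨_, h', rfl⟩⟩
  haveI hQ0n : Q0.Normal := inferInstance
  have hCQ : ∀ g ∈ C, ∀ x ∈ QG, g * x * g⁻¹ ∈ QG := fun g hg x hx =>
    (hQmem _ (C.mul_mem (C.mul_mem hg (hQC hx)) (C.inv_mem hg))).2
      (hQ0n.conj_mem _ ((hQmem x (hQC hx)).1 hx) ⟨g, hg⟩)
  have hFQ : Cfsg.generalizedFittingSubgroup ↥C = Q0 :=
    le_antisymm (Core.le_pCore inferInstance hex.1.1)
      ((Core.pCore_le_fittingSubgroup 2 ↥C).trans le_sup_right)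
  rw [hFQ] at hex
  obtain ⟨⟨hQ2, hfr, hcom⟩, hZ2⟩ := hex
  -- the centre
  have hz1 : z ≠ 1 := fun h => by simp [h] at hz
  have hzz : z * z = 1 := by rw [← pow_two, ← hz, pow_orderOf_eq_one]
  have hzC : z ∈ C := (hmemC z).2 rfl
  have hzQ : z ∈ QG := by
    refine (hQmem z hzC).2 (Core.le_pCore (N := Subgroup.zpowers (⟨z, hzC⟩ : C)) ?_ ?_ (Subgroup.mem_zpowers _))
    · constructor
      intro x hx g
      obtain ⟨k, rfl⟩ := hx
      have hcz : Commute g (⟨z, hzC⟩ : C) := Subtype.ext ((hmemC g.1).1 g.2)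
      rw [(hcz.zpow_right k).eq, mul_inv_cancel_right]
      exact Subgroup.zpow_mem_zpowers _ k
    · refine IsPGroup.of_card (n := 1) ?_
      rw [Nat.card_zpowers, ← Subgroup.orderOf_coe, hz, pow_one]
  set ζ : Q0 := ⟨⟨z, hzC⟩, (hQmem z hzC).1 hzQ⟩ with hζ
  have hζc : ∀ x : Q0, Commute ζ x := fun x => Subtype.ext (Subtype.ext ((hmemC x.1.1).1 x.1.2).symm)
  have hζ1 : ζ ≠ 1 := fun h => hz1 (congrArg (fun x : Q0 => x.1.1) h)
  have hcenmem : ∀ x ∈ Subgroup.center Q0, x = 1 ∨ x = ζ := by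
    intro x hx
    obtain ⟨a, b, hab, huniv⟩ := Nat.card_eq_two_iff.1 hZ2
    have h : ∀ y : Subgroup.center Q0, y = 1 ∨ y = ⟨ζ, Subgroup.mem_center_iff.2 fun g => (hζc g).symm⟩ := by
      intro y
      have h1 : ∀ w : Subgroup.center Q0, w = a ∨ w = b := fun w => by
        have : w ∈ ({a, b} : Set _) := huniv ▸ Set.mem_univ w
        simpa using this
      have hne : (1 : Subgroup.center Q0) ≠ ⟨ζ, Subgroup.mem_center_iff.2 fun g => (hζc g).symm⟩ :=
        fun h => hζ1 (congrArg Subtype.val h).symm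
      rcases h1 y with rfl | rfl <;> rcases h1 1 with h' | h' <;>
        rcases h1 ⟨ζ, Subgroup.mem_center_iff.2 fun g => (hζc g).symm⟩ with h'' | h'' <;>
        first | exact Or.inl h'.symm | exact Or.inr h''.symm | exact absurd (h'.trans h''.symm) hne
    rcases h ⟨x, hx⟩ with h | h
    · exact Or.inl (congrArg Subtype.val h)
    · exact Or.inr (congrArg Subtype.val h)
  have hzp : ∀ a b, zp z a * zp z b = zp z (a ^^ b) := by
    intro a b; cases a <;> cases b <;> simp [zp, hzz]
  have hzp1 : zp z false = 1 := rfl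
  have hzpC : ∀ b, zp z b ∈ QG := by intro b; cases b <;> simp [zp, hzQ, QG.one_mem]
  have hzpc : ∀ b, ∀ g ∈ C, g * zp z b = zp z b * g := by
    intro b g hg; cases b <;> simp [zp, (hmemC g).1 hg]
  have hzinj : Function.Injective (zp z) := by
    intro a b h; cases a <;> cases b <;> simp [zp, hz1, Ne.symm hz1] at h ⊢
  have hin : ∀ x : Q0, (x = 1 ∨ x = ζ) → ∃ b, (x.1.1 : G) = zp z b := by
    rintro x (rfl | rfl)
    · exact ⟨false, rfl⟩
    · exact ⟨true, rfl⟩
  have hsq0 : ∀ x : Q0, x * x = 1 ∨ x * x = ζ := fun x => hcenmem _ (by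
    rw [← hfr, ← pow_two]; exact pow_mem_frattini hQ2 x)
  have hcomm0 : ∀ x y : Q0, ⁅x, y⁆ = 1 ∨ ⁅x, y⁆ = ζ := fun x y => hcenmem _ (by
    rw [← hcom]
    exact Subgroup.commutator_mem_commutator (Subgroup.mem_top _) (Subgroup.mem_top _))
  have hcen : ∀ x ∈ QG, (∀ y ∈ QG, Commute x y) → ∃ b, x = zp z b := fun x hx hall =>
    hin ⟨⟨x, hQC hx⟩, (hQmem x _).1 hx⟩ (hcenmem _ (Subgroup.mem_center_iff.2 fun y =>
      Subtype.ext (Subtype.ext (hall y.1.1 ((hQmem y.1.1 y.1.2).2 y.2)).symm)))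
  -- the complement
  let k : A5 →* G := K.subtype.comp eK.symm.toMonoidHom
  have hkK : ∀ σ, k σ ∈ K := fun σ => (eK.symm σ).2
  have hkinj : Function.Injective k := fun a b h => eK.symm.injective (Subtype.ext h)
  have hkQ : ∀ σ, k σ ∈ QG → σ = 1 := fun σ h => hkinj (by
    rw [map_one]
    have : k σ ∈ K ⊓ QG := ⟨hkK σ, h⟩
    rwa [hKQ, Subgroup.mem_bot] at this)
  let fixes : Subgroup A5 :=
    { carrier := {σ | ∀ x ∈ QG, Commute (k σ) x}
      one_mem' := fun x _ => by rw [map_one]; exact Commute.one_left x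
      mul_mem' := fun {a b} ha hb x hx => by rw [map_mul]; exact (ha x hx).mul_left (hb x hx)
      inv_mem' := fun {a} ha x hx => by rw [map_inv]; exact (ha x hx).inv_left }
  haveI : fixes.Normal := ⟨fun a ha g x hx => by
    have h1 := ha _ (hCQ _ (C.inv_mem (hKC' (hkK g))) x hx)
    have h2 := h1.map (MulAut.conj (k g)).toMonoidHom
    simp only [MulEquiv.coe_toMonoidHom, MulAut.conj_apply, inv_inv] at h2
    rw [show k g * ((k g)⁻¹ * x * k g) * (k g)⁻¹ = x by group] at h2
    rwa [map_mul, map_mul, map_inv]⟩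
  haveI : IsSimpleGroup A5 := alternatingGroup.isSimpleGroup_five
  have hfix : fixes = ⊥ := by
    rcases IsSimpleGroup.eq_bot_or_eq_top_of_normal fixes inferInstance with h | h
    · exact h
    · exfalso
      obtain ⟨σ, hσ, hσ1⟩ : ∃ σ : A5, σ * σ = 1 ∧ σ ≠ 1 := by decide +kernel
      have ho : orderOf (k σ) = 2 := by
        rw [orderOf_eq_prime_iff, pow_two, ← map_mul, hσ, map_one]
        exact ⟨rfl, fun h => hσ1 (hkinj (h.trans k.map_one.symm))⟩
      obtain ⟨g, hg⟩ := isConj_iff.1 (hCz _ (hKC' (hkK σ)) ho fun hh => hσ1 (hkQ σ hh))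
      have hle : QG.map (MulAut.conj g).toMonoidHom ≤ Subgroup.centralizer ({t} : Set G) := by
        rintro _ ⟨x, hx, rfl⟩
        have h2 := ((h ▸ Subgroup.mem_top σ : σ ∈ fixes) x hx).map (MulAut.conj g).toMonoidHom
        simp only [MulEquiv.coe_toMonoidHom, MulAut.conj_apply, hg] at h2
        rw [Subgroup.mem_centralizer_iff]
        intro y hy
        rw [Set.mem_singleton_iff.1 hy]
        exact h2.eq
      have h32 := Subgroup.card_dvd_of_le hle
      rw [Subgroup.card_map_of_injective (MulAut.conj g).injective, hQG,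
        Subgroup.card_map_of_injective C.subtype_injective, hQ, hCt240] at h32
      omega
  haveI : Fact (Nat.Prime 5) := ⟨by norm_num⟩
  obtain ⟨f, hf5, hf1⟩ : ∃ f : A5, f * f * f * f * f = 1 ∧ f ≠ 1 := by decide +kernel
  have hf5' : f ^ 5 = 1 := by rw [← hf5]; simp [pow_succ, mul_assoc]
  have hfo : orderOf f = 5 := orderOf_eq_prime (p := 5) hf5' hf1
  -- the fixed points of `k f`
  letI : Fintype G := Fintype.ofFinite G
  let cf : Equiv.Perm QG :=
    { toFun := fun x => ⟨k f * x * (k f)⁻¹, hCQ _ (hKC' (hkK f)) x x.2⟩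
      invFun := fun x => ⟨(k f)⁻¹ * x * ((k f)⁻¹)⁻¹, hCQ _ (C.inv_mem (hKC' (hkK f))) x x.2⟩
      left_inv := fun x => Subtype.ext (by group)
      right_inv := fun x => Subtype.ext (by group) }
  have hcfpow : ∀ (n : ℕ) (x : QG), ((cf ^ n) x : G) = k f ^ n * x * (k f ^ n)⁻¹ := by
    intro n
    induction n with
    | zero => intro x; simp
    | succ n ih =>
      intro x
      rw [pow_succ', Equiv.Perm.mul_apply]
      show k f * ((cf ^ n) x : G) * (k f)⁻¹ = _
      rw [ih, pow_succ']; group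
  have hcf5 : cf ^ 5 ^ 1 = 1 := by
    refine Equiv.ext fun x => Subtype.ext ?_
    rw [hcfpow, ← map_pow, pow_one, hf5', map_one]
    simp
  have hQcard : Nat.card QG = 32 := by
    rw [hQG, Subgroup.card_map_of_injective C.subtype_injective, hQ]
  have hCf : ∀ x ∈ QG, Commute (k f) x → ∃ b, x = zp z b := by
    intro x hx hxf
    set F := QG ⊓ Subgroup.centralizer ({k f} : Set G) with hF
    have hxF : x ∈ F := ⟨hx, by
      refine Subgroup.mem_centralizer_iff.2 ?_; intro y hy; rw [Set.mem_singleton_iff.1 hy]; exact hxf.eq⟩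
    have hsupp : cf.supportᶜ.card = Nat.card F := by
      rw [← Nat.card_eq_finsetCard]
      refine Nat.card_congr
        { toFun := fun y => ⟨y.1.1, y.1.2, ?_⟩
          invFun := fun y => ⟨⟨y.1, y.2.1⟩, ?_⟩
          left_inv := fun y => rfl
          right_inv := fun y => rfl }
      · have h := y.2
        rw [Finset.mem_compl, Equiv.Perm.notMem_support] at h
        refine Subgroup.mem_centralizer_iff.2 ?_
        intro w hw
        rw [Set.mem_singleton_iff.1 hw]
        exact mul_inv_eq_iff_eq_mul.1 (congrArg Subtype.val h)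
      · rw [Finset.mem_compl, Equiv.Perm.notMem_support]
        refine Subtype.ext (mul_inv_eq_iff_eq_mul.2 ?_)
        exact (Subgroup.mem_centralizer_iff.1 y.2.2 _ rfl)
    have hmod := Equiv.Perm.card_compl_support_modEq hcf5
    rw [hsupp, ← Nat.card_eq_fintype_card, hQcard] at hmod
    have hdvd : Nat.card F ∣ 2 ^ 5 := by
      have h := Subgroup.card_dvd_of_le (inf_le_left : F ≤ QG)
      rw [hQcard] at h
      exact h
    obtain ⟨i, hi, hie⟩ := (Nat.dvd_prime_pow Nat.prime_two).1 hdvd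
    have hcases : Nat.card F = 2 ∨ Nat.card F = 32 := by
      rw [hie] at hmod ⊢
      unfold Nat.ModEq at hmod; interval_cases i <;> first | (norm_num at hmod; done) | norm_num
    rcases hcases with h2 | h32
    · obtain ⟨a, b, hab, huniv⟩ := Nat.card_eq_two_iff.1 h2
      have h1 : ∀ w : F, w = a ∨ w = b := fun w => by
        have : w ∈ ({a, b} : Set _) := huniv ▸ Set.mem_univ w
        simpa using this
      have hzF : z ∈ F := ⟨hzQ, by
        refine Subgroup.mem_centralizer_iff.2 ?_; intro y hy; rw [Set.mem_singleton_iff.1 hy]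
        exact (hmemC _).1 (hKC' (hkK f))⟩
      have hne : (1 : F) ≠ ⟨z, hzF⟩ := fun h => hz1 (congrArg Subtype.val h).symm
      by_contra hno
      push Not at hno
      have hx1 : (⟨x, hxF⟩ : F) ≠ 1 := fun h => hno false (congrArg Subtype.val h)
      have hxz : (⟨x, hxF⟩ : F) ≠ ⟨z, hzF⟩ := fun h => hno true (congrArg Subtype.val h)
      rcases h1 ⟨x, hxF⟩ with h | h <;> rcases h1 1 with h' | h' <;> rcases h1 ⟨z, hzF⟩ with h'' | h'' <;>
        first | exact hx1 (h.trans h'.symm) | exact hxz (h.trans h''.symm) | exact hne (h'.trans h''.symm)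
    · exfalso
      have hFQ' : F = QG := Subgroup.eq_of_le_of_card_ge inf_le_left (by rw [h32, hQcard])
      refine hf1 ((Subgroup.eq_bot_iff_forall _).1 hfix f fun y hy => ?_)
      have := (hFQ'.symm ▸ hy : y ∈ F).2
      exact Subgroup.mem_centralizer_iff.1 this _ rfl
  -- the ten involutions
  let J : Finset QG := Finset.univ.filter fun x => (x : G) * x = 1 ∧ (x : G) ≠ 1 ∧ (x : G) ≠ z
  have hJ : J.card = 10 := by
    have hroots := square_roots (Q := Q0) (by rw [← Nat.card_eq_fintype_card, hQ]) ζ hζ1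
      (Subtype.ext (Subtype.ext hzz)) hζc hsq0 hcomm0
      (fun x hx => hcenmem x (Subgroup.mem_center_iff.2 fun y => (hx y).symm))
    have hcongr : (Finset.univ.filter fun x : Q0 => x * x = 1).card =
        (Finset.univ.filter fun x : QG => (x : G) * x = 1).card := by
      refine Finset.card_bij (fun x _ => ⟨x.1.1, (hQmem _ x.1.2).2 x.2⟩) ?_ ?_ ?_
      · intro x hx
        simp only [Finset.mem_filter, Finset.mem_univ, true_and] at hx ⊢
        exact congrArg (fun y : Q0 => y.1.1) hx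
      · exact fun x _ y _ h => Subtype.ext (Subtype.ext (congrArg (fun w : QG => (w : G)) h :))
      · intro x hx
        simp only [Finset.mem_filter, Finset.mem_univ, true_and] at hx
        exact ⟨⟨⟨x.1, hQC x.2⟩, (hQmem _ _).1 x.2⟩,
          Finset.mem_filter.2 ⟨Finset.mem_univ _, Subtype.ext (Subtype.ext hx)⟩, rfl⟩
    have hsplit : (Finset.univ.filter fun x : QG => (x : G) * x = 1) = J ∪ {1, ⟨z, hzQ⟩} := by
      ext x
      simp only [J, Finset.mem_filter, Finset.mem_univ, true_and, Finset.mem_union, Finset.mem_insert,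
        Finset.mem_singleton]
      constructor
      · intro h
        by_cases h1 : (x : G) = 1
        · exact Or.inr (Or.inl (Subtype.ext h1))
        by_cases h2 : (x : G) = z
        · exact Or.inr (Or.inr (Subtype.ext h2))
        exact Or.inl ⟨h, h1, h2⟩
      · rintro (h | rfl | rfl)
        · exact h.1
        · simp
        · exact hzz
    have hne : (1 : QG) ≠ ⟨z, hzQ⟩ := fun h => hz1 (congrArg Subtype.val h).symm
    rw [hcongr, hsplit, Finset.card_union_of_disjoint, Finset.card_pair hne] at hroots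
    swap
    · rw [Finset.disjoint_left]
      intro x hx hx'
      simp only [J, Finset.mem_filter, Finset.mem_univ, true_and] at hx
      simp only [Finset.mem_insert, Finset.mem_singleton] at hx'
      rcases hx' with rfl | rfl
      · exact hx.2.1 rfl
      · exact hx.2.2 rfl
    have hJinv : ∀ x, x ∈ J → cf x ∈ J := by
      intro x hx
      simp only [J, Finset.mem_filter, Finset.mem_univ, true_and] at hx ⊢
      show k f * x * (k f)⁻¹ * (k f * x * (k f)⁻¹) = 1 ∧ k f * x * (k f)⁻¹ ≠ 1 ∧ k f * x * (k f)⁻¹ ≠ z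
      refine ⟨by rw [show k f * x * (k f)⁻¹ * (k f * x * (k f)⁻¹) = k f * (x * x) * (k f)⁻¹ by group, hx.1]; group,
        by rw [ne_eq, conj_eq_one_iff]; exact hx.2.1, fun h => hx.2.2 ?_⟩
      have h' := congrArg (fun y => (k f)⁻¹ * y * k f) h
      rw [show (k f)⁻¹ * (k f * x * (k f)⁻¹) * k f = x by group] at h'
      rw [h', mul_assoc, ← (hmemC _).1 (hKC' (hkK f))]; group
    have hJinv' : ∀ x, cf x ∈ J ↔ x ∈ J := by
      intro x
      refine ⟨fun h => ?_, hJinv x⟩
      have h4 : (cf ^ 4) (cf x) = x := by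
        rw [← Equiv.Perm.mul_apply, ← pow_succ]
        exact congrArg (fun p : Equiv.Perm QG => p x) hcf5
      rw [← h4]
      have : ∀ n, (cf ^ n) (cf x) ∈ J := by
        intro n
        induction n with
        | zero => simpa using h
        | succ n ih => rw [pow_succ', Equiv.Perm.mul_apply]; exact hJinv _ ih
      exact this 4
    have hmod := Equiv.Perm.card_compl_support_modEq (σ := cf.subtypePerm (p := (· ∈ J)) hJinv')
      (p := 5) (n := 1) (Equiv.ext fun x => Subtype.ext (by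
        rw [Equiv.Perm.subtypePerm_pow]
        exact congrArg (fun p : Equiv.Perm QG => p x.1) hcf5))
    rw [Fintype.card_coe, Finset.card_eq_zero.2 ?_] at hmod
    · rcases hroots with h | h <;> · unfold Nat.ModEq at hmod; omega
    · refine Finset.eq_empty_of_forall_notMem fun x hx => ?_
      rw [Finset.mem_compl, Equiv.Perm.notMem_support] at hx
      have hfx : cf x.1 = x.1 := congrArg Subtype.val hx
      obtain ⟨b, hb⟩ := hCf x.1.1 x.1.2 (mul_inv_eq_iff_eq_mul.1 (congrArg Subtype.val hfx))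
      have hxJ := x.2
      simp only [J, Finset.mem_filter, Finset.mem_univ, true_and] at hxJ
      cases b
      · exact hxJ.2.1 hb
      · exact hxJ.2.2 hb
  -- five pairs
  obtain ⟨w, hw⟩ : J.Nonempty := Finset.card_pos.1 (by omega)
  let a : Fin 5 → G := fun i => k f ^ i.val * w * (k f ^ i.val)⁻¹
  have haQ : ∀ i, a i ∈ QG := fun i => hCQ _ (C.pow_mem (hKC' (hkK f)) _) w w.2
  have hJmem : ∀ x, ∀ hx : x ∈ QG, (⟨x, hx⟩ : QG) ∈ J ↔ x * x = 1 ∧ ∀ b, x ≠ zp z b := by
    intro x hx
    simp only [J, Finset.mem_filter, Finset.mem_univ, true_and, Bool.forall_bool]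
    rfl
  have hwJ := (hJmem w.1 w.2).1 hw
  have hainv : ∀ i, a i * a i = 1 ∧ ∀ b, a i ≠ zp z b := by
    intro i
    refine ⟨?_, fun b h => hwJ.2 b ?_⟩
    · simp only [a]
      rw [show k f ^ i.val * w * (k f ^ i.val)⁻¹ * (k f ^ i.val * w * (k f ^ i.val)⁻¹) =
        k f ^ i.val * (w * w) * (k f ^ i.val)⁻¹ by group, hwJ.1]
      group
    · have h' := congrArg (fun y => (k f ^ i.val)⁻¹ * y * k f ^ i.val) h
      simp only [a] at h'
      rw [show (k f ^ i.val)⁻¹ * (k f ^ i.val * w * (k f ^ i.val)⁻¹) * k f ^ i.val = w by group] at h'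
      rw [h', mul_assoc, ← hzpc b _ (C.pow_mem (hKC' (hkK f)) _)]; group
  have hadist : ∀ i j b, a i = a j * zp z b → i = j ∧ b = false := by
    intro i j b h
    set d := (5 + i.val - j.val) % 5 with hd
    have hkf5 : k f ^ 5 = 1 := by rw [← map_pow, hf5', map_one]
    have hpow : k f ^ i.val = k f ^ j.val * k f ^ d := by
      rw [← pow_add, pow_eq_pow_iff_modEq, orderOf_injective k hkinj, hfo]
      unfold Nat.ModEq; omega
    have h1 : k f ^ d * w * (k f ^ d)⁻¹ = w * zp z b := by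
      apply mul_left_cancel (a := k f ^ j.val)
      apply mul_right_cancel (b := (k f ^ j.val)⁻¹)
      calc k f ^ j.val * (k f ^ d * w * (k f ^ d)⁻¹) * (k f ^ j.val)⁻¹ = a i := by
            simp only [a, hpow]; group
        _ = a j * zp z b := h
        _ = _ := by
          simp only [a]
          rw [mul_assoc (k f ^ j.val * w), hzpc b _ (C.inv_mem (C.pow_mem (hKC' (hkK f)) _))]
          group
    have hiter : ∀ n : ℕ, k f ^ (d * n) * w * (k f ^ (d * n))⁻¹ = w * zp z b ^ n := by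
      intro n
      induction n with
      | zero => simp
      | succ n ih =>
        rw [show d * (n + 1) = d + d * n by ring, pow_add,
          show k f ^ d * k f ^ (d * n) * w * (k f ^ d * k f ^ (d * n))⁻¹ =
            k f ^ d * (k f ^ (d * n) * w * (k f ^ (d * n))⁻¹) * (k f ^ d)⁻¹ by group, ih,
          show k f ^ d * (w * zp z b ^ n) * (k f ^ d)⁻¹ =
            k f ^ d * w * (k f ^ d)⁻¹ * (k f ^ d * zp z b ^ n * (k f ^ d)⁻¹) by group, h1,
          (Commute.pow_right (hzpc b _ (C.pow_mem (hKC' (hkK f)) d)) n).eq, mul_inv_cancel_right,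
          pow_succ', mul_assoc]
    have hb : b = false := by
      have h5 := hiter 5
      rw [mul_comm d 5, pow_mul, hkf5, one_pow] at h5
      cases b
      · rfl
      · exfalso
        simp [zp, pow_succ, hzz] at h5
        exact hz1 h5
    subst hb
    rw [hzp1, mul_one] at h1
    refine ⟨?_, rfl⟩
    by_contra hij
    have hd0 : d ≠ 0 := fun h0 => hij (Fin.ext (by omega))
    obtain ⟨c, hc⟩ : ∃ c, d * c % 5 = 1 := by
      have : d < 5 := Nat.mod_lt _ (by omega)
      interval_cases d <;> first | omega | exact ⟨1, rfl⟩ | exact ⟨3, rfl⟩ | exact ⟨2, rfl⟩ | exact ⟨4, rfl⟩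
    have hcf : k f = (k f ^ d) ^ c := by
      rw [← pow_mul]
      conv_lhs => rw [← pow_one (k f)]
      rw [pow_eq_pow_iff_modEq, orderOf_injective k hkinj, hfo]
      unfold Nat.ModEq; omega
    have hcw : Commute (k f) w.1 := by
      rw [hcf]; exact Commute.pow_left (mul_inv_eq_iff_eq_mul.1 h1) c
    obtain ⟨b', hb'⟩ := hCf w.1 w.2 hcw
    exact hwJ.2 b' hb'
  have hasurj : ∀ x, x ∈ QG → x * x = 1 → (∀ b, x ≠ zp z b) → ∃ i b, x = a i * zp z b := by
    intro x hx h1 h2
    let g : Fin 5 × Bool → {y // y ∈ J} := fun p => ⟨⟨a p.1 * zp z p.2, QG.mul_mem (haQ _) (hzpC _)⟩,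
      (hJmem _ _).2 ⟨by
        rw [show a p.1 * zp z p.2 * (a p.1 * zp z p.2) = a p.1 * (zp z p.2 * a p.1) * zp z p.2 by group,
          ← hzpc _ _ (hQC (haQ _)), ← mul_assoc, (hainv _).1, one_mul, hzp, Bool.xor_self, hzp1],
        fun b h => (hainv p.1).2 (b ^^ p.2) (by
          rw [← hzp, ← h, mul_assoc, hzp, Bool.xor_self, hzp1, mul_one])⟩⟩
    have hg : Function.Bijective g := by
      refine (Fintype.bijective_iff_injective_and_card g).2 ⟨fun p q h => ?_, by simp [Fintype.card_coe, hJ]⟩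
      have h' : a p.1 * zp z p.2 = a q.1 * zp z q.2 := congrArg (fun y : {y // y ∈ J} => y.1.1) h
      have h'' : a p.1 = a q.1 * zp z (q.2 ^^ p.2) := by
        rw [← hzp, ← mul_assoc, ← h', mul_assoc, hzp, Bool.xor_self, hzp1, mul_one]
      obtain ⟨e1, e2⟩ := hadist _ _ _ h''
      refine Prod.ext e1 ?_
      revert e2; cases p.2 <;> cases q.2 <;> simp
    obtain ⟨p, hp⟩ := hg.2 ⟨⟨x, hx⟩, (hJmem x hx).2 ⟨h1, h2⟩⟩
    exact ⟨p.1, p.2, (congrArg (fun y : {y // y ∈ J} => y.1.1) hp).symm⟩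
  -- the action on the five pairs
  have hrel : ∀ (σ : A5) (i : Fin 5), ∃ j b, k σ * a i * (k σ)⁻¹ = a j * zp z b := by
    intro σ i
    refine hasurj _ (hCQ _ (hKC' (hkK σ)) _ (haQ i)) ?_ fun b h => (hainv i).2 b ?_
    · rw [show k σ * a i * (k σ)⁻¹ * (k σ * a i * (k σ)⁻¹) = k σ * (a i * a i) * (k σ)⁻¹ by group, (hainv i).1]
      group
    · have h' := congrArg (fun y => (k σ)⁻¹ * y * k σ) h
      rw [show (k σ)⁻¹ * (k σ * a i * (k σ)⁻¹) * k σ = a i by group] at h'
      rw [h', mul_assoc, ← hzpc b _ (hKC' (hkK σ))]; group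
  choose π β hπ using hrel
  have huniq : ∀ i j b b', a i * zp z b = a j * zp z b' → i = j := by
    intro i j b b' h
    refine (hadist i j (b' ^^ b) ?_).1
    rw [← hzp, ← mul_assoc, ← h, mul_assoc, hzp, Bool.xor_self, hzp1, mul_one]
  have hπmul : ∀ σ τ i, π (σ * τ) i = π σ (π τ i) := by
    intro σ τ i
    refine huniq _ _ (β (σ * τ) i) (β σ (π τ i) ^^ β τ i) ?_
    rw [← hπ, map_mul, show k σ * k τ * a i * (k σ * k τ)⁻¹ = k σ * (k τ * a i * (k τ)⁻¹) * (k σ)⁻¹ by group,
      hπ, show k σ * (a (π τ i) * zp z (β τ i)) * (k σ)⁻¹ =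
        k σ * a (π τ i) * ((zp z (β τ i)) * (k σ)⁻¹) by group,
      ← hzpc _ _ (C.inv_mem (hKC' (hkK σ))), ← mul_assoc, hπ, mul_assoc, hzp]
  have hπone : ∀ i, π 1 i = i := fun i => (huniq i _ false (β 1 i) (by rw [← hπ, map_one, hzp1]; group)).symm
  let P : A5 →* Equiv.Perm (Fin 5) := MonoidHom.mk'
    (fun σ => ⟨π σ, π σ⁻¹, fun i => by rw [← hπmul, inv_mul_cancel, hπone],
      fun i => by rw [← hπmul, mul_inv_cancel, hπone]⟩)
    fun σ τ => Equiv.ext fun i => hπmul σ τ i
  have hPinj : Function.Injective P := by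
    rw [← MonoidHom.ker_eq_bot_iff]
    refine (IsSimpleGroup.eq_bot_or_eq_top_of_normal P.ker inferInstance).resolve_right fun h => ?_
    have h1 : P f 0 = 0 := by
      rw [MonoidHom.mem_ker.1 (h ▸ Subgroup.mem_top f : f ∈ P.ker)]; rfl
    have h2 : a 1 = a 0 * zp z (β f 0) := by
      have := hπ f 0
      change k f * a 0 * (k f)⁻¹ = a (P f 0) * zp z (β f 0) at this
      rw [h1] at this
      rw [← this]
      simp [a]
    exact absurd (hadist 1 0 _ h2).1 (by decide)
  have hrange : P.range = alternatingGroup (Fin 5) := by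
    refine Equiv.Perm.eq_alternatingGroup_of_index_eq_two ?_
    have h := Subgroup.card_mul_index P.range
    rw [← Nat.card_congr (MonoidHom.ofInjective hPinj).toEquiv, nat_card_alternatingGroup,
      Nat.card_perm, Nat.card_fin] at h
    simp [Nat.factorial] at h
    omega
  let al : A5 ≃* A5 := MulEquiv.ofBijective (P.codRestrict (alternatingGroup (Fin 5))
    fun σ => hrange ▸ ⟨σ, rfl⟩) ⟨fun x y h => hPinj (congrArg Subtype.val h), fun y => by
      obtain ⟨x, hx⟩ := (hrange.symm ▸ y.2 : (y : Equiv.Perm (Fin 5)) ∈ P.range)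
      exact ⟨x, Subtype.ext hx⟩⟩
  let k' : A5 →* G := k.comp al.symm.toMonoidHom
  have hk'C : ∀ σ, k' σ ∈ C := fun σ => hKC' (hkK _)
  have hk'Q : ∀ σ, k' σ ∈ QG → σ = 1 := fun σ h => by
    have := congrArg al (hkQ _ h)
    simpa using this
  have hk'act : ∀ σ : A5, ∀ i, ∃ b, k' σ * a i * (k' σ)⁻¹ = a (σ.1 i) * zp z b := by
    intro σ i
    refine ⟨β (al.symm σ) i, ?_⟩
    have : π (al.symm σ) i = σ.1 i := by
      have h := congrArg (fun x : A5 => x.1 i) (al.apply_symm_apply σ)
      exact h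
    rw [← this]
    exact hπ _ i
  -- exact lifts
  have hstab : ∀ σ : A5, σ.1 0 = 0 → k' σ * a 0 * (k' σ)⁻¹ = a 0 := by
    intro σ hσ
    have h3 : ∀ g : A5, g * g * g = 1 ∧ g.1 0 = 0 → k' g * a 0 * (k' g)⁻¹ = a 0 := by
      rintro g ⟨hg, hg0⟩
      obtain ⟨b, hb⟩ := hk'act g 0
      rw [hg0] at hb
      cases b
      · rw [hb, hzp1, mul_one]
      · exfalso
        have e : k' (g * g * g) * a 0 * (k' (g * g * g))⁻¹ = a 0 * z := by
          rw [map_mul, map_mul]
          have hzc : ∀ y ∈ C, y * z * y⁻¹ = z := fun y hy => by rw [(hmemC y).1 hy, mul_inv_cancel_right]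
          have hb' : k' g * a 0 * (k' g)⁻¹ = a 0 * z := hb
          calc k' g * k' g * k' g * a 0 * (k' g * k' g * k' g)⁻¹
              = k' g * (k' g * (k' g * a 0 * (k' g)⁻¹) * (k' g)⁻¹) * (k' g)⁻¹ := by group
            _ = k' g * (k' g * a 0 * (k' g)⁻¹ * (k' g * z * (k' g)⁻¹)) * (k' g)⁻¹ := by
                conv_lhs => rw [hb']
                group
            _ = k' g * (a 0 * z * z) * (k' g)⁻¹ := by rw [hb', hzc _ (hk'C g)]
            _ = a 0 * z := by rw [mul_assoc (a 0), hzz, mul_one, hb']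
        rw [hg, map_one, one_mul, inv_one, mul_one] at e
        exact hz1 (mul_eq_left.1 e.symm)
    obtain ⟨g, hg, h, hh, rfl⟩ := stab_split σ (Finset.mem_filter.2 ⟨Finset.mem_univ _, hσ⟩)
    rw [map_mul, show k' g * k' h * a 0 * (k' g * k' h)⁻¹ = k' g * (k' h * a 0 * (k' h)⁻¹) * (k' g)⁻¹ by group,
      h3 h (Finset.mem_filter.1 hh).2, h3 g (Finset.mem_filter.1 hg).2]
  choose s hs using transitive
  let u : Fin 5 → G := fun i => k' (s i) * a 0 * (k' (s i))⁻¹
  have hequiv : ∀ σ i, k' σ * u i * (k' σ)⁻¹ = u (σ.1 i) := by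
    intro σ i
    have hfix' : ((s (σ.1 i))⁻¹ * σ * s i : A5).1 0 = 0 := by
      show (s (σ.1 i)).1⁻¹ (σ.1 ((s i).1 0)) = 0
      rw [hs]
      calc (s (σ.1 i)).1⁻¹ (σ.1 i) = (s (σ.1 i)).1⁻¹ ((s (σ.1 i)).1 0) := by rw [hs]
        _ = 0 := (s (σ.1 i)).1.symm_apply_apply 0
    have h := hstab _ hfix'
    simp only [u]
    conv_rhs => rw [← h]
    simp only [map_mul, map_inv]
    group
  have hua : ∀ i, ∃ b, u i = a i * zp z b := fun i => by
    obtain ⟨b, hb⟩ := hk'act (s i) 0
    rw [hs] at hb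
    exact ⟨b, hb⟩
  have huQ : ∀ i, u i ∈ QG := fun i => hCQ _ (hk'C _) _ (haQ 0)
  have huu : ∀ i, u i * u i = 1 := fun i => by
    simp only [u]
    rw [show k' (s i) * a 0 * (k' (s i))⁻¹ * (k' (s i) * a 0 * (k' (s i))⁻¹) =
      k' (s i) * (a 0 * a 0) * (k' (s i))⁻¹ by group, (hainv 0).1]
    group
  clear_value u a
  have hudist : ∀ i j b, u i = u j * zp z b → i = j := by
    intro i j b h
    obtain ⟨b1, h1⟩ := hua i
    obtain ⟨b2, h2⟩ := hua j
    rw [h1, h2, mul_assoc, hzp] at h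
    exact huniq _ _ _ _ h
  have hanti : ∀ i j, i ≠ j → u i * u j = z * (u j * u i) := by
    have hcases : ∀ x ∈ QG, ∀ y ∈ QG, x * y = y * x ∨ x * y = z * (y * x) := by
      intro x hx y hy
      rcases hcomm0 ⟨⟨x, hQC hx⟩, (hQmem _ _).1 hx⟩ ⟨⟨y, hQC hy⟩, (hQmem _ _).1 hy⟩ with h | h
      · exact Or.inl (congrArg (fun w : Q0 => w.1.1) (commutatorElement_eq_one_iff_commute.1 h).eq)
      · right
        have h' : x * y * x⁻¹ * y⁻¹ = z := congrArg (fun w : Q0 => w.1.1) h
        rw [← h']; group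
    have h01 : u 0 * u 1 = z * (u 1 * u 0) := by
      refine (hcases _ (huQ 0) _ (huQ 1)).resolve_left fun hc => ?_
      have hne : ∀ b, u 0 * u 1 ≠ zp z b := fun b h => absurd (hudist 1 0 b (by
        rw [← h, ← mul_assoc, huu, one_mul])) (by decide)
      obtain ⟨m, b, hm⟩ := hasurj _ (QG.mul_mem (huQ 0) (huQ 1))
        (by rw [show u 0 * u 1 * (u 0 * u 1) = u 0 * (u 1 * u 0) * u 1 by group, ← hc, ← mul_assoc, huu,
          one_mul, huu]) hne
      obtain ⟨b', hb'⟩ := hua m
      have hum : u 0 * u 1 = u m * zp z (b' ^^ b) := by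
        rw [hm, hb', mul_assoc, hzp, ← Bool.xor_assoc, Bool.xor_self, Bool.false_xor]
      have hnot : ∀ (i : Fin 5), u i = u 0 * u 1 * zp z (b' ^^ b) → i = m := fun i hi => hudist i m false (by
        rw [hzp1, mul_one, hi, hum, mul_assoc, hzp, Bool.xor_self, hzp1, mul_one])
      have hm0 : m ≠ 0 := by
        rintro rfl
        obtain ⟨b1, hb1⟩ := hua 1
        exact (hainv 1).2 _ (show a 1 = zp z ((b' ^^ b) ^^ b1) by
          rw [← hzp, ← mul_left_cancel hum, hb1, mul_assoc, hzp, Bool.xor_self, hzp1, mul_one])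
      have hm1 : m ≠ 1 := by
        rintro rfl
        rw [hc] at hum
        obtain ⟨b1, hb1⟩ := hua 0
        exact (hainv 0).2 _ (show a 0 = zp z ((b' ^^ b) ^^ b1) by
          rw [← hzp, ← mul_left_cancel hum, hb1, mul_assoc, hzp, Bool.xor_self, hzp1, mul_one])
      obtain ⟨σ, hσ0, hσ1, hσm⟩ := exists_moving m hm0 hm1
      refine hσm (hudist _ _ false ?_)
      have hc' : ∀ x y, k' σ * (x * y) * (k' σ)⁻¹ = (k' σ * x * (k' σ)⁻¹) * (k' σ * y * (k' σ)⁻¹) :=
        fun x y => by group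
      have hzc' : k' σ * zp z (b' ^^ b) * (k' σ)⁻¹ = zp z (b' ^^ b) := by
        rw [hzpc _ _ (hk'C σ), mul_inv_cancel_right]
      have h : k' σ * (u 0 * u 1) * (k' σ)⁻¹ = k' σ * (u m * zp z (b' ^^ b)) * (k' σ)⁻¹ := by rw [hum]
      rw [hc', hc', hequiv, hequiv, hequiv, hzc', hσ0, hσ1, hum] at h
      rw [hzp1, mul_one]
      exact (mul_right_cancel h).symm
    intro i j hij
    obtain ⟨σ, rfl, rfl⟩ := two_transitive i j hij
    have h := congrArg (fun y => k' σ * y * (k' σ)⁻¹) h01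
    rw [show k' σ * (u 0 * u 1) * (k' σ)⁻¹ = k' σ * u 0 * (k' σ)⁻¹ * (k' σ * u 1 * (k' σ)⁻¹) by group,
      show k' σ * (z * (u 1 * u 0)) * (k' σ)⁻¹ =
        k' σ * z * (k' σ)⁻¹ * (k' σ * u 1 * (k' σ)⁻¹ * (k' σ * u 0 * (k' σ)⁻¹)) by group,
      hequiv, hequiv, (hmemC _).1 (hk'C σ), mul_inv_cancel_right] at h
    exact h
  -- the normal form
  have hupQ : ∀ i b, up u i b ∈ QG := by intro i b; cases b <;> simp [up, huQ, QG.one_mem]
  have hup_self : ∀ i x y, up u i x * up u i y = up u i (x ^^ y) := by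
    intro i x y; cases x <;> cases y <;> simp [up, huu]
  have hup_swap : ∀ i j x y, i ≠ j → up u i x * up u j y = zp z (x && y) * (up u j y * up u i x) := by
    intro i j x y hij; cases x <;> cases y <;> simp [up, zp, hanti i j hij]
  have hsw : ∀ i j x y r, i ≠ j → up u i x * (up u j y * r) = zp z (x && y) * (up u j y * (up u i x * r)) := by
    intro i j x y r hij; rw [← mul_assoc, hup_swap i j x y hij]; simp only [mul_assoc]
  have hse : ∀ i x y r, up u i x * (up u i y * r) = up u i (x ^^ y) * r := by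
    intro i x y r; rw [← mul_assoc, hup_self]
  have hpz : ∀ i x b r, up u i x * (zp z b * r) = zp z b * (up u i x * r) := by
    intro i x b r; rw [← mul_assoc, hzpc b _ (hQC (hupQ i x)), mul_assoc]
  have hzz' : ∀ b c r, zp z b * (zp z c * r) = zp z (b ^^ c) * r := by
    intro b c r; rw [← mul_assoc, hzp]
  have hiota : ∀ p q : Q5, iota z u (mulQ p q) = iota z u p * iota z u q := by
    rintro ⟨e, x0, x1, x2, x3⟩ ⟨e', y0, y1, y2, y3⟩
    simp only [iota, mulQ, mul_assoc, hpz, hzz', hse, hsw 1 0 _ _ _ (by decide), hsw 2 0 _ _ _ (by decide),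
      hsw 3 0 _ _ _ (by decide), hsw 2 1 _ _ _ (by decide), hsw 3 1 _ _ _ (by decide),
      hsw 3 2 _ _ _ (by decide), hup_self, hup_swap 3 0 _ _ (by decide)]
    congr 2
    revert e e' x0 x1 x2 x3 y0 y1 y2 y3
    decide
  have hpush : ∀ i j x, up u i x * u j = zp z (x && decide (i ≠ j)) * (u j * up u i x) := by
    intro i j x
    by_cases h : i = j
    · subst h; cases x <;> simp [up, zp]
    · cases x <;> simp [up, zp, h, hanti i j h]
  have hconj : ∀ j p, iota z u p * u j = zp z (par j p) * (u j * iota z u p) := by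
    rintro j ⟨e, x0, x1, x2, x3⟩
    have hzu : ∀ b r, u j * (zp z b * r) = zp z b * (u j * r) := by
      intro b r; rw [← mul_assoc, hzpc b _ (hQC (huQ j)), mul_assoc]
    have hp' : ∀ i x r, up u i x * (u j * r) = zp z (x && decide (i ≠ j)) * (u j * (up u i x * r)) := by
      intro i x r; rw [← mul_assoc, hpush]; simp only [mul_assoc]
    simp only [iota, mul_assoc, hpush, hp', hpz, hzu, hzz', par]
    congr 2
    clear hzu hp'
    revert e x0 x1 x2 x3 j
    decide
  have hiinj : Function.Injective (iota z u) := by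
    intro p q h
    have hx : p.2 = q.2 := par_inj p q fun j => by
      have h1 := hconj j p
      rw [h, hconj j q] at h1
      exact hzinj (mul_right_cancel h1).symm
    obtain ⟨e, x⟩ := p
    obtain ⟨e', y⟩ := q
    cases hx
    obtain ⟨x0, x1, x2, x3⟩ := x
    simp only [iota, mul_left_inj] at h
    rw [hzinj h]
  have hiQ : ∀ p, iota z u p ∈ QG := by
    rintro ⟨e, x0, x1, x2, x3⟩
    exact QG.mul_mem (hzpC e) (QG.mul_mem (hupQ _ _) (QG.mul_mem (hupQ _ _) (QG.mul_mem (hupQ _ _) (hupQ _ _))))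
  have hisurj : ∀ x ∈ QG, ∃ p, iota z u p = x := by
    intro x hx
    have hb : Function.Bijective fun p => (⟨iota z u p, hiQ p⟩ : QG) :=
      Function.Injective.bijective_of_nat_card_le (fun p q h => hiinj (congrArg Subtype.val h)) (by
        rw [hQcard]; simp)
    obtain ⟨p, hp⟩ := hb.2 ⟨x, hx⟩
    exact ⟨p, congrArg Subtype.val hp⟩
  obtain ⟨δ, hδ⟩ : ∃ δ, iota z u (δ, true, true, true, true) = u 4 := by
    obtain ⟨⟨e, x⟩, hp⟩ := hisurj _ (huQ 4)
    refine ⟨e, ?_⟩
    have hx : x = (true, true, true, true) := par_four (e, x) fun j => by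
      have h1 := hconj j (e, x)
      rw [hp] at h1
      by_cases h : (4 : Fin 5) = j
      · subst h
        have : zp z (par 4 (e, x)) = zp z false := by
          rw [hzp1]; exact (mul_eq_right.1 h1.symm)
        simp [hzinj this]
      · rw [hanti 4 j h] at h1
        simp [h, hzinj (show zp z (par j (e, x)) = zp z true from (mul_right_cancel h1).symm)]
    rw [← hx]; exact hp
  have hpt : ∀ i, iota z u (pt δ i) = u i := by
    intro i
    fin_cases i
    · simp [pt, iota, zp, up]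
    · simp [pt, iota, zp, up]
    · simp [pt, iota, zp, up]
    · simp [pt, iota, zp, up]
    · exact hδ
  have hact : ∀ (σ : A5) p, iota z u (actQ δ (encP σ) p) = k' σ * iota z u p * (k' σ)⁻¹ := by
    rintro σ ⟨e, x0, x1, x2, x3⟩
    have hstep : ∀ b i r, iota z u (actStep δ (encP σ) b i r) = k' σ * up u i b * (k' σ)⁻¹ * iota z u r := by
      intro b i r
      cases b
      · simp [actStep, up]
      · simp [actStep, up, hiota, hpt, hequiv, app_encP]
    have hze : iota z u (e, false, false, false, false) = k' σ * zp z e * (k' σ)⁻¹ := by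
      rw [hzpc e _ (hk'C σ), mul_inv_cancel_right]; simp [iota, up]
    have hone' : iota z u oneQ = 1 := by simp [iota, oneQ, up, zp]
    rw [actQ, hiota, hstep, hstep, hstep, hstep, hone', hze]
    simp only [iota]
    group
  let φ : MA → G := fun p => iota z u p.1 * k' p.2
  have hφmul : ∀ p q, φ (mulMA δ p q) = φ p * φ q := by
    intro p q
    simp only [φ, mulMA, hiota, hact, map_mul]
    group
  have hk'inj : Function.Injective k' := hkinj.comp al.symm.injective
  have hφinj : Function.Injective φ := by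
    intro p q h
    simp only [φ] at h
    have h1 : (iota z u q.1)⁻¹ * iota z u p.1 = k' (q.2 * p.2⁻¹) := by
      rw [map_mul, map_inv, eq_mul_inv_iff_mul_eq, mul_assoc]
      exact inv_mul_eq_iff_eq_mul.2 h
    have h2 := hk'Q _ (h1 ▸ QG.mul_mem (QG.inv_mem (hiQ _)) (hiQ _))
    rw [h2, map_one, inv_mul_eq_one] at h1
    exact Prod.ext (hiinj h1.symm) (mul_inv_eq_one.1 h2).symm
  have hφC : ∀ p, φ p ∈ C := fun p => C.mul_mem (hQC (hiQ _)) (hk'C _)
  have hφsurj : ∀ g ∈ C, ∃ p, φ p = g := by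
    intro g hg
    have hn : K ≤ Subgroup.normalizer (QG : Set G) := by
      intro c hc
      rw [Subgroup.mem_normalizer_iff]
      intro x
      refine ⟨fun hx => hCQ c (hKC' hc) x hx, fun hx => ?_⟩
      have := hCQ _ (C.inv_mem (hKC' hc)) _ hx
      rwa [show c⁻¹ * (c * x * c⁻¹) * c⁻¹⁻¹ = x by group] at this
    rw [← hKC, sup_comm, ← SetLike.mem_coe, Subgroup.coe_mul_of_right_le_normalizer_left QG K hn] at hg
    obtain ⟨x, hx, c, hc, rfl⟩ := hg
    obtain ⟨p, rfl⟩ := hisurj x hx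
    refine ⟨(p, al (eK ⟨c, hc⟩)), ?_⟩
    simp [φ, k', k]
  have hcardC : Nat.card C = 1920 := by
    rw [← Nat.card_eq_of_bijective (fun p : MA => (⟨φ p, hφC p⟩ : C))
      ⟨fun p q h => hφinj (congrArg Subtype.val h), fun g => by
        obtain ⟨p, hp⟩ := hφsurj g g.2
        exact ⟨p, Subtype.ext hp⟩⟩, Nat.card_prod, nat_card_alternatingGroup]
    simp [Nat.factorial]
  refine ⟨hcardC, ?_⟩
  have hone : φ (oneQ, 1) = 1 := by simp [φ, oneQ, iota, zp, up]
  have hxm : φ ((true, false, false, false, false), 1) = z := by simp [φ, iota, zp, up]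
  have hone' : encM (oneQ, 1) = oneM := rfl
  have hzm : encM ((true, false, false, false, false), 1) = zM := rfl
  have hord : ∀ p, orderOf (φ p) = 2 ↔ mulM δ (encM p) (encM p) = oneM ∧ encM p ≠ oneM := by
    intro p
    rw [orderOf_eq_prime_iff, pow_two, ← hφmul, ← hone, hφinj.eq_iff, hφinj.ne_iff, ← hone', ← encM_mul,
      encM_injective.eq_iff, encM_injective.ne_iff]
  have hinQ : ∀ p, φ p ∈ QG ↔ p.2 = 1 := fun p =>
    ⟨fun h => hk'Q _ ((QG.mul_mem_cancel_left (hiQ _)).1 h), fun h => by simp [φ, h, hiQ]⟩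
  have hordconj : ∀ x g : G, orderOf x = 2 → IsConj x g → orderOf g = 2 := by
    intro x g hx h
    obtain ⟨c, rfl⟩ := isConj_iff.1 h
    exact (orderOf_injective (MulAut.conj c).toMonoidHom (MulAut.conj c).injective x).trans hx
  rw [count_pairs_enc (mul := mulMA δ) (mul' := mulM δ) encM encM_injective (encM_mul δ) z t z hz ht hz φ
    hφinj hφmul (fun g hg => hφsurj g ((hmemC g).2 hg)) (oneQ, 1) _ hone hxm (classZ δ) (classT δ)
    ?_ ?_ ?_ ?_ (hone'.symm ▸ periodZ δ), hone', hzm]
  · exact pairsZ_card δ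
  · intro p
    simp only [classZ, Finset.mem_filter, Finset.mem_product, Finset.mem_univ, Finset.mem_singleton, true_and]
    constructor
    · intro h
      have ho := hordconj z _ hz h
      refine ⟨?_, (hord p).1 ho⟩
      have h1 : p.2 = 1 := by
        refine (hinQ p).1 ?_
        by_contra hQ'
        exact hzt (h.trans (hCz _ (hφC p) ho hQ'))
      simp [encM, h1, encP_one]
    · rintro ⟨h, h'⟩
      have h1 : p.2 = 1 := encP_injective (h.trans encP_one.symm)
      exact (hQz _ ((hinQ p).2 h1) ((hord p).2 h')).symm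
  · intro p
    simp only [classT, Finset.mem_filter, Finset.mem_product, Finset.mem_univ, true_and]
    constructor
    · intro h
      have ho := hordconj t _ ht h
      obtain ⟨h1, -⟩ := (hord p).1 ho
      refine ⟨(mem_invs p.2).2 ⟨?_, fun h3 => hzt ?_⟩, h1⟩
      · have h2 := congrArg Prod.snd h1
        simp only [mulM, encM, oneM] at h2
        rw [← encP_mul, ← encP_one] at h2
        exact encP_injective h2
      · exact (hQz _ ((hinQ p).2 h3) ho).symm.trans h.symm
    · rintro ⟨h2, h⟩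
      have h3 := ((mem_invs p.2).1 h2).2
      refine (hCz _ (hφC p) ((hord p).2 ⟨h, fun h' => h3 ?_⟩) fun hQ' => h3 ((hinQ p).1 hQ')).symm
      exact encP_injective ((congrArg Prod.snd h').trans encP_one.symm)
  · rintro ⟨q, s⟩ hm
    simp only [classZ, Finset.mem_filter, Finset.mem_product, Finset.mem_singleton] at hm
    exact ⟨(q, 1), by rw [hm.1.2]; rfl⟩
  · rintro ⟨q, s⟩ hm
    simp only [classT, Finset.mem_filter, Finset.mem_product] at hm
    obtain ⟨σ, rfl⟩ := invs_range s hm.1.2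
    exact ⟨(q, σ), rfl⟩

end Cfsg.Agent.FGS3.HallJankoOrder
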