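import Cfsg.Agent.FGS3.HallJankoOrder.Model
import Mathlib.GroupTheory.OrderOfElement
import Mathlib.SetTheory.Cardinal.Finite

/-!
Counting, inside a group, the pairs whose product has a given involution among its powers, through a
multiplicative model of that involution's centraliser.
-/

set_option autoImplicit false
set_option synthInstance.maxSize 4096

namespace Cfsg.Agent.FGS3.HallJankoOrder

variable {M G : Type*} [DecidableEq M] [Group G] [Finite G] {mul : M → M → M}

theorem orbitHas_spec {φ : M → G} (hmul : ∀ a b, φ (mul a b) = φ a * φ b) {x y : M} :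
    ∀ n c, orbitHas mul x y n c = true → ∃ k < n, φ c * φ y ^ k = φ x := by
  intro n
  induction n with
  | zero => intro c h; simp [orbitHas] at h
  | succ n ih =>
    intro c h
    simp only [orbitHas, Bool.or_eq_true, decide_eq_true_eq] at h
    rcases h with h | h
    · exact ⟨0, n.succ_pos, by rw [pow_zero, mul_one, h]⟩
    · obtain ⟨k, hk, he⟩ := ih _ h
      exact ⟨k + 1, by omega, by rw [pow_succ', ← mul_assoc, ← hmul, he]⟩

theorem orbitHas_of_eq {φ : M → G} (hφ : Function.Injective φ) (hmul : ∀ a b, φ (mul a b) = φ a * φ b)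
    {x y : M} : ∀ n c k, k < n → φ c * φ y ^ k = φ x → orbitHas mul x y n c = true := by
  intro n
  induction n with
  | zero => intro c k hk; omega
  | succ n ih =>
    intro c k hk he
    simp only [orbitHas, Bool.or_eq_true, decide_eq_true_eq]
    cases k with
    | zero => exact Or.inl (hφ (by rwa [pow_zero, mul_one] at he))
    | succ k => exact Or.inr (ih _ k (by omega) (by rwa [hmul, mul_assoc, ← pow_succ']))

/-- The count of pairs at `x` from a model of its centraliser. -/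
theorem count_pairs (x₁ x₂ x : G) (h₁ : orderOf x₁ = 2) (h₂ : orderOf x₂ = 2) (hx : orderOf x = 2)
    (φ : M → G) (hφ : Function.Injective φ) (hmul : ∀ a b, φ (mul a b) = φ a * φ b)
    (hsurj : ∀ g, g * x = x * g → ∃ a, φ a = g) (one xm : M) (hone : φ one = 1) (hxm : φ xm = x)
    (A B : Finset M)
    (hA : ∀ a, IsConj x₁ (φ a) ↔ a ∈ A) (hB : ∀ a, IsConj x₂ (φ a) ↔ a ∈ B)
    (hper : ∀ p ∈ A ×ˢ B, orbitHas mul one (mul p.1 p.2) 12 (mul p.1 p.2) = true) :
    Nat.card {p : G × G // IsConj x₁ p.1 ∧ IsConj x₂ p.2 ∧ x ∈ Subgroup.zpowers (p.1 * p.2)} =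
      ((A ×ˢ B).filter fun p => orbitHas mul xm (mul p.1 p.2) 12 one = true).card := by
  classical
  have hsq : ∀ {a b : G}, orderOf a = 2 → IsConj a b → b * b = 1 := by
    intro a b ha hab
    obtain ⟨g, rfl⟩ := isConj_iff.1 hab
    have : a * a = 1 := by rw [← pow_two, ← ha, pow_orderOf_eq_one]
    rw [show g * a * g⁻¹ * (g * a * g⁻¹) = g * (a * a) * g⁻¹ by group, this]
    group
  have hxinv : x⁻¹ = x := inv_eq_of_mul_eq_one_right (by rw [← pow_two, ← hx, pow_orderOf_eq_one])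
  have hcomm : ∀ u v : G, u * u = 1 → v * v = 1 → x ∈ Subgroup.zpowers (u * v) → u * x = x * u ∧ v * x = x * v := by
    intro u v hu hv hmem
    obtain ⟨k, hk⟩ := Subgroup.mem_zpowers_iff.1 hmem
    have hui : u⁻¹ = u := inv_eq_of_mul_eq_one_right hu
    have hvi : v⁻¹ = v := inv_eq_of_mul_eq_one_right hv
    have h1 : u * x * u⁻¹ = x := by
      conv_lhs => rw [← hk, ← conj_zpow, show u * (u * v) * u⁻¹ = (u * v)⁻¹ by
        rw [mul_inv_rev, hvi, ← mul_assoc, hu, one_mul]]
      rw [inv_zpow, hk, hxinv]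
    have h2 : u * x = x * u := mul_inv_eq_iff_eq_mul.1 h1
    refine ⟨h2, ?_⟩
    have h3 : u * v * x = x * (u * v) := by
      rw [← hk]; exact ((Commute.refl (u * v)).zpow_right k).eq
    calc v * x = u⁻¹ * (u * v * x) := by group
      _ = u⁻¹ * (x * (u * v)) := by rw [h3]
      _ = x * v := by rw [hui, ← mul_assoc, h2, mul_assoc x u, ← mul_assoc u u, hu, one_mul]
  have hmem : ∀ a ∈ A, ∀ b ∈ B,
      (x ∈ Subgroup.zpowers (φ a * φ b) ↔ orbitHas mul xm (mul a b) 12 one = true) := by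
    intro a ha b hb
    rw [← hmul]
    constructor
    · intro h
      obtain ⟨k, hk, he⟩ := orbitHas_spec hmul 12 _ (hper (a, b) (Finset.mem_product.2 ⟨ha, hb⟩))
      have hone' : φ (mul a b) ^ (k + 1) = 1 := by rw [pow_succ', he, hone]
      have hord : orderOf (φ (mul a b)) ≤ 12 :=
        (Nat.le_of_dvd k.succ_pos (orderOf_dvd_of_pow_eq_one hone')).trans (by omega)
      obtain ⟨j, hj⟩ := (mem_powers_iff_mem_zpowers.2 h : x ∈ Submonoid.powers (φ (mul a b)))
      change φ (mul a b) ^ j = x at hj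
      refine orbitHas_of_eq hφ hmul 12 one (j % orderOf (φ (mul a b))) ?_ ?_
      · exact lt_of_lt_of_le (Nat.mod_lt _ (orderOf_pos _)) hord
      · rw [hone, one_mul, pow_mod_orderOf, hj, hxm]
    · intro h
      obtain ⟨k, -, he⟩ := orbitHas_spec hmul 12 _ h
      rw [hone, one_mul, hxm] at he
      exact he ▸ pow_mem (Subgroup.mem_zpowers _) k
  rw [← Nat.card_eq_finsetCard]
  symm
  refine Nat.card_eq_of_bijective (fun p => ⟨(φ p.1.1, φ p.1.2), ?_⟩) ⟨?_, ?_⟩
  · obtain ⟨hp, ho⟩ := Finset.mem_filter.1 p.2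
    obtain ⟨ha, hb⟩ := Finset.mem_product.1 hp
    exact ⟨(hA _).2 ha, (hB _).2 hb, (hmem _ ha _ hb).2 ho⟩
  · intro p q h
    have h' := congrArg Subtype.val h
    simp only [Prod.mk.injEq] at h'
    exact Subtype.ext (Prod.ext (hφ h'.1) (hφ h'.2))
  · rintro ⟨⟨u, v⟩, hu, hv, hm⟩
    obtain ⟨cu, cv⟩ := hcomm u v (hsq h₁ hu) (hsq h₂ hv) hm
    obtain ⟨a, rfl⟩ := hsurj u cu
    obtain ⟨b, rfl⟩ := hsurj v cv
    have ha := (hA a).1 hu
    have hb := (hB b).1 hv
    exact ⟨⟨(a, b), Finset.mem_filter.2 ⟨Finset.mem_product.2 ⟨ha, hb⟩, (hmem a ha b hb).1 hm⟩⟩, rfl⟩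

theorem orbitHas_enc {M' : Type*} [DecidableEq M'] {mul' : M' → M' → M'} {enc : M → M'}
    (henc : Function.Injective enc) (hencmul : ∀ a b, enc (mul a b) = mul' (enc a) (enc b)) {x y : M} :
    ∀ n c, orbitHas mul' (enc x) (enc y) n (enc c) = orbitHas mul x y n c := by
  intro n
  induction n with
  | zero => intro c; rfl
  | succ n ih =>
    intro c
    simp only [orbitHas, ← hencmul, ih, henc.eq_iff]

/-- The count through an encoding of the model. -/
theorem count_pairs_enc [Fintype M] {M' : Type*} [DecidableEq M'] {mul' : M' → M' → M'} (enc : M → M')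
    (henc : Function.Injective enc) (hencmul : ∀ a b, enc (mul a b) = mul' (enc a) (enc b))
    (x₁ x₂ x : G) (h₁ : orderOf x₁ = 2) (h₂ : orderOf x₂ = 2) (hx : orderOf x = 2)
    (φ : M → G) (hφ : Function.Injective φ) (hmul : ∀ a b, φ (mul a b) = φ a * φ b)
    (hsurj : ∀ g, g * x = x * g → ∃ a, φ a = g) (one xm : M) (hone : φ one = 1) (hxm : φ xm = x)
    (A B : Finset M') (hA : ∀ a, IsConj x₁ (φ a) ↔ enc a ∈ A) (hB : ∀ a, IsConj x₂ (φ a) ↔ enc a ∈ B)
    (hAr : ∀ m ∈ A, ∃ a, enc a = m) (hBr : ∀ m ∈ B, ∃ a, enc a = m)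
    (hper : ∀ p ∈ A ×ˢ B, orbitHas mul' (enc one) (mul' p.1 p.2) 12 (mul' p.1 p.2) = true) :
    Nat.card {p : G × G // IsConj x₁ p.1 ∧ IsConj x₂ p.2 ∧ x ∈ Subgroup.zpowers (p.1 * p.2)} =
      ((A ×ˢ B).filter fun p => orbitHas mul' (enc xm) (mul' p.1 p.2) 12 (enc one) = true).card := by
  classical
  rw [count_pairs x₁ x₂ x h₁ h₂ hx φ hφ hmul hsurj one xm hone hxm
    (Finset.univ.filter fun a => enc a ∈ A) (Finset.univ.filter fun b => enc b ∈ B)
    (fun a => by rw [hA, Finset.mem_filter, and_iff_right (Finset.mem_univ a)])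
    (fun b => by rw [hB, Finset.mem_filter, and_iff_right (Finset.mem_univ b)]) fun p hp => by
      simp only [Finset.mem_product, Finset.mem_filter, Finset.mem_univ, true_and] at hp
      rw [← orbitHas_enc henc hencmul, hencmul]
      exact hper (enc p.1, enc p.2) (Finset.mem_product.2 hp)]
  refine Finset.card_bij (fun p _ => (enc p.1, enc p.2)) ?_ ?_ ?_
  · intro p hp
    simp only [Finset.mem_filter, Finset.mem_product, Finset.mem_univ, true_and] at hp ⊢
    refine ⟨hp.1, ?_⟩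
    rw [← hencmul, orbitHas_enc henc hencmul]
    exact hp.2
  · intro p _ q _ h
    exact Prod.ext (henc (Prod.ext_iff.1 h).1) (henc (Prod.ext_iff.1 h).2)
  · rintro ⟨m, m'⟩ hp
    simp only [Finset.mem_filter, Finset.mem_product] at hp
    obtain ⟨a, rfl⟩ := hAr m hp.1.1
    obtain ⟨b, rfl⟩ := hBr m' hp.1.2
    refine ⟨(a, b), ?_, rfl⟩
    simp only [Finset.mem_filter, Finset.mem_product, Finset.mem_univ, true_and]
    refine ⟨hp.1, ?_⟩
    rw [← orbitHas_enc henc hencmul, hencmul]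
    exact hp.2

theorem invs_range : ∀ s ∈ invs, ∃ σ : A5, encP σ = s := by decide +kernel

end Cfsg.Agent.FGS3.HallJankoOrder
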