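import Mathlib.GroupTheory.SpecificGroups.Alternating

/-!
A combinatorial model of the extension of the extraspecial group of order `32` of minus type by the
alternating group of degree five, one of `2² × A₅`, and the counts needed in them.
-/

set_option autoImplicit false
set_option maxRecDepth 100000
set_option synthInstance.maxSize 4096

namespace Cfsg.Agent.FGS3.HallJankoOrder

/-- A set with a multiplication. -/
def pw {M : Type*} (mul : M → M → M) (one y : M) : ℕ → M
  | 0 => one
  | n + 1 => mul (pw mul one y n) y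

/-- Whether one of `c, c * y, ..., c * y ^ (n - 1)` is `x`. -/
def orbitHas {M : Type*} [DecidableEq M] (mul : M → M → M) (x y : M) : ℕ → M → Bool
  | 0, _ => false
  | n + 1, c => decide (c = x) || orbitHas mul x y n (mul c y)

/-- Normal forms `z ^ e * u₀ ^ x₀ * u₁ ^ x₁ * u₂ ^ x₂ * u₃ ^ x₃`. -/
abbrev Q5 := Bool × Bool × Bool × Bool × Bool

/-- The sign picked up on sorting a product. -/
def sgn : Bool × Bool × Bool × Bool → Bool × Bool × Bool × Bool → Bool
  | (_, x₁, x₂, x₃), (y₀, y₁, y₂, _) => (x₁ && y₀) ^^ (x₂ && (y₀ ^^ y₁)) ^^ (x₃ && (y₀ ^^ y₁ ^^ y₂))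

def mulQ : Q5 → Q5 → Q5
  | (e, x₀, x₁, x₂, x₃), (e', y₀, y₁, y₂, y₃) =>
    (e ^^ e' ^^ sgn (x₀, x₁, x₂, x₃) (y₀, y₁, y₂, y₃), x₀ ^^ y₀, x₁ ^^ y₁, x₂ ^^ y₂, x₃ ^^ y₃)

def oneQ : Q5 := (false, false, false, false, false)

/-- The five distinguished involutions. -/
def pt (δ : Bool) (i : Fin 5) : Q5 :=
  if i = 0 then (false, true, false, false, false) else
  if i = 1 then (false, false, true, false, false) else
  if i = 2 then (false, false, false, true, false) else
  if i = 3 then (false, false, false, false, true) else (δ, true, true, true, true)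

abbrev A5 := alternatingGroup (Fin 5)

/-- Permutations of five letters, by their lists of images. -/
abbrev P5 := Fin 5 × Fin 5 × Fin 5 × Fin 5 × Fin 5

def app : P5 → Fin 5 → Fin 5
  | (a, b, c, d, e), i => if i = 0 then a else if i = 1 then b else if i = 2 then c else if i = 3 then d else e

def mulP (s : P5) : P5 → P5
  | (a, b, c, d, e) => (app s a, app s b, app s c, app s d, app s e)

def oneP : P5 := (0, 1, 2, 3, 4)

def encP (σ : A5) : P5 := (σ.1 0, σ.1 1, σ.1 2, σ.1 3, σ.1 4)

def actStep (δ : Bool) (s : P5) (b : Bool) (i : Fin 5) (r : Q5) : Q5 :=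
  if b then mulQ (pt δ (app s i)) r else r

def actQ (δ : Bool) (s : P5) : Q5 → Q5
  | (e, x₀, x₁, x₂, x₃) =>
    mulQ (e, false, false, false, false)
      (actStep δ s x₀ 0 (actStep δ s x₁ 1 (actStep δ s x₂ 2 (actStep δ s x₃ 3 oneQ))))

/-- Elements of the extension. -/
abbrev M := Q5 × P5

def mulM (δ : Bool) (a b : M) : M := (mulQ a.1 (actQ δ a.2 b.1), mulP a.2 b.2)

def oneM : M := (oneQ, oneP)

def zM : M := ((true, false, false, false, false), oneP)

/-- The fifteen even involutions. -/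
def invs : Finset P5 :=
  {(0, 2, 1, 4, 3),
    (0, 3, 4, 1, 2),
    (0, 4, 3, 2, 1),
    (1, 0, 2, 4, 3),
    (1, 0, 3, 2, 4),
    (1, 0, 4, 3, 2),
    (2, 1, 0, 4, 3),
    (2, 3, 0, 1, 4),
    (2, 4, 0, 3, 1),
    (3, 1, 4, 0, 2),
    (3, 2, 1, 0, 4),
    (3, 4, 2, 0, 1),
    (4, 1, 3, 2, 0),
    (4, 2, 1, 3, 0),
    (4, 3, 2, 1, 0)}

def classZ (δ : Bool) : Finset M :=
  (Finset.univ ×ˢ {oneP}).filter fun a => mulM δ a a = oneM ∧ a ≠ oneM

def classT (δ : Bool) : Finset M :=
  (Finset.univ ×ˢ invs).filter fun a => mulM δ a a = oneM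

def pairsZ (δ : Bool) : Finset (M × M) :=
  (classZ δ ×ˢ classT δ).filter fun p =>
    orbitHas (mulM δ) zM (mulM δ p.1 p.2) 12 oneM = true

theorem pairsZ_card : ∀ δ : Bool, (pairsZ δ).card = 960 := by decide +kernel

theorem periodZ_card : ∀ δ : Bool, ((classZ δ ×ˢ classT δ).filter fun p =>
    orbitHas (mulM δ) oneM (mulM δ p.1 p.2) 12 (mulM δ p.1 p.2) = true).card = 1320 := by decide +kernel

theorem productZ_card : ∀ δ : Bool, (classZ δ ×ˢ classT δ).card = 1320 := by decide +kernel

theorem periodZ (δ : Bool) : ∀ p ∈ classZ δ ×ˢ classT δ,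
    orbitHas (mulM δ) oneM (mulM δ p.1 p.2) 12 (mulM δ p.1 p.2) = true := by
  intro p hp
  have h := Finset.eq_of_subset_of_card_le
    (Finset.filter_subset (fun p => orbitHas (mulM δ) oneM (mulM δ p.1 p.2) 12 (mulM δ p.1 p.2) = true) (classZ δ ×ˢ classT δ))
    (by rw [periodZ_card δ, productZ_card δ])
  rw [← h] at hp
  exact (Finset.mem_filter.1 hp).2

/-- The model of the centraliser of the other involution. -/
abbrev N := (Bool × Bool) × P5

def mulN (a b : N) : N := ((a.1.1 ^^ b.1.1, a.1.2 ^^ b.1.2), mulP a.2 b.2)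

def oneN : N := ((false, false), oneP)

def tN : N := ((true, false), oneP)

def classZN : Finset N := {(false, false)} ×ˢ invs

def classTN : Finset N :=
  ({(true, false), (false, true), (true, true)} : Finset (Bool × Bool)) ×ˢ insert oneP invs

def pairsN : Finset (N × N) :=
  (classZN ×ˢ classTN).filter fun p => orbitHas mulN tN (mulN p.1 p.2) 12 oneN = true

theorem pairsN_card : pairsN.card = 195 := by decide +kernel

theorem periodN_card : ((classZN ×ˢ classTN).filter fun p =>
    orbitHas mulN oneN (mulN p.1 p.2) 12 (mulN p.1 p.2) = true).card = 720 := by decide +kernel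

theorem productN_card : (classZN ×ˢ classTN).card = 720 := by decide +kernel

theorem periodN : ∀ p ∈ classZN ×ˢ classTN,
    orbitHas mulN oneN (mulN p.1 p.2) 12 (mulN p.1 p.2) = true := by
  intro p hp
  have h := Finset.eq_of_subset_of_card_le
    (Finset.filter_subset (fun p => orbitHas mulN oneN (mulN p.1 p.2) 12 (mulN p.1 p.2) = true) (classZN ×ˢ classTN))
    (by rw [periodN_card, productN_card])
  rw [← h] at hp
  exact (Finset.mem_filter.1 hp).2

/-- Combinatorics of five letters. -/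
theorem mem_invs : ∀ σ : A5, encP σ ∈ invs ↔ σ * σ = 1 ∧ σ ≠ 1 := by decide +kernel

theorem transitive : ∀ i : Fin 5, ∃ σ : A5, σ.1 0 = i := by decide +kernel

theorem two_transitive : ∀ i j : Fin 5, i ≠ j → ∃ σ : A5, σ.1 0 = i ∧ σ.1 1 = j := by decide +kernel

theorem exists_moving : ∀ k : Fin 5, k ≠ 0 → k ≠ 1 → ∃ σ : A5, σ.1 0 = 0 ∧ σ.1 1 = 1 ∧ σ.1 k ≠ k := by
  decide +kernel

theorem stab_split : ∀ σ ∈ (Finset.univ : Finset A5).filter (fun σ => σ.1 0 = 0),
    ∃ g ∈ (Finset.univ : Finset A5).filter (fun g => g * g * g = 1 ∧ g.1 0 = 0),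
      ∃ h ∈ (Finset.univ : Finset A5).filter (fun h => h * h * h = 1 ∧ h.1 0 = 0), σ = g * h := by
  decide +kernel

theorem app_encP (σ : A5) (i : Fin 5) : app (encP σ) i = σ.1 i := by
  fin_cases i <;> rfl

theorem encP_mul (σ τ : A5) : encP (σ * τ) = mulP (encP σ) (encP τ) := by
  show _ = (app (encP σ) (τ.1 0), app (encP σ) (τ.1 1), app (encP σ) (τ.1 2), app (encP σ) (τ.1 3),
    app (encP σ) (τ.1 4))
  simp only [app_encP]
  rfl

theorem encP_injective : Function.Injective encP := by
  intro σ τ h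
  refine Subtype.ext (Equiv.ext fun i => ?_)
  rw [← app_encP, h, app_encP]

theorem encP_one : encP 1 = oneP := rfl

end Cfsg.Agent.FGS3.HallJankoOrder
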